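import Mathlib.AlgebraicGeometry.Fiber
import Mathlib.AlgebraicGeometry.Morphisms.FiniteType
import Mathlib.AlgebraicGeometry.Morphisms.Flat
import Mathlib.AlgebraicGeometry.Noetherian
import Groth.Agent.Models.StalkTensor

/-!
# Local rings of the fibres of a base change

For a cartesian square `g' ≫ f = f' ≫ g` and `x' : X'` with `y = g (f' x')`, `y' = f' x'`, the local ring at `x'` of
the fibre of `f'` is `(A ⊗[κ(y)] κ(y'))_q` and the local ring at `g' x'` of the fibre of `f` is `A` localized at the
contraction of `q`, for a suitable `κ(y)`-algebra `A` (an affine open of the fibre of `f`).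
-/

set_option autoImplicit false
universe u

open CategoryTheory AlgebraicGeometry Limits TensorProduct

namespace Groth.Agent.Dual.H330.FiberBC

/-- The local ring of the fibre through `x` may be computed at any name of the point. -/
theorem nonempty_stalk_asFiber_equiv {X Y : Scheme.{u}} (f : X ⟶ Y) (x : X) (y : Y) (z : ↥(f.fiber y))
    (hz : f.fiberι y z = x) :
    Nonempty ((f.fiber (f x)).presheaf.stalk (f.asFiber x) ≃+* (f.fiber y).presheaf.stalk z) := by
  have hy : f x = y := by
    have h1 : x ∈ Set.range (f.fiberι y) := ⟨z, hz⟩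
    rw [Scheme.Hom.range_fiberι] at h1
    exact h1
  subst hy
  have h2 : f.asFiber x = z := by
    apply (f.fiberι (f x)).isEmbedding.injective
    rw [Scheme.Hom.fiberι_asFiber, hz]
  rw [h2]
  exact ⟨RingEquiv.refl _⟩

/-- The local rings of the fibres in a cartesian square, abstract field version. -/
theorem exists_tensor_aux {X Y X' Y' : Scheme.{u}} {f : X ⟶ Y} {g : Y' ⟶ Y} {f' : X' ⟶ Y'} {g' : X' ⟶ X}
    (x' : X') (k k' : Type u) [Field k] [Field k'] [Algebra k k']
    (p : f.fiber (g (f' x')) ⟶ Spec (CommRingCat.of k)) (p' : f'.fiber (f' x') ⟶ Spec (CommRingCat.of k'))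
    (φ : f'.fiber (f' x') ⟶ f.fiber (g (f' x')))
    (hφ : φ ≫ f.fiberι (g (f' x')) = f'.fiberι (f' x') ≫ g')
    (hpb : IsPullback φ p' p (Spec.map (CommRingCat.ofHom (algebraMap k k')))) :
    ∃ (A : Type u) (_ : CommRing A) (_ : Algebra k A) (j : Spec (CommRingCat.of A) ⟶ f.fiber (g (f' x')))
      (_ : IsOpenImmersion j) (_ : j ≫ p = Spec.map (CommRingCat.ofHom (algebraMap k A)))
      (q : Ideal (A ⊗[k] k')) (_ : q.IsPrime),
      Nonempty ((f'.fiber (f' x')).presheaf.stalk (f'.asFiber x') ≃+* Localization.AtPrime q) ∧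
      Nonempty ((f.fiber (f (g' x'))).presheaf.stalk (f.asFiber (g' x')) ≃+*
        Localization.AtPrime (q.comap (algebraMap A (A ⊗[k] k')))) := by
  let e := hpb.isoPullback
  let w := e.hom (f'.asFiber x')
  have hw : pullback.fst p (Spec.map (CommRingCat.ofHom (algebraMap k k'))) w = φ (f'.asFiber x') := by
    change (e.hom ≫ pullback.fst _ _) (f'.asFiber x') = _
    rw [hpb.isoPullback_hom_fst]
  obtain ⟨A, _, _, j, hj, hj2, q, hq, ⟨e1⟩, ⟨e2⟩⟩ := Models.StalkTensor.exists_affine_tensor (C := k') p w
  refine ⟨A, inferInstance, inferInstance, j, hj, hj2, q, hq, ?_, ?_⟩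
  · obtain ⟨e3⟩ := Models.StalkTensor.nonempty_stalk_equiv_of_isOpenImmersion e.hom (f'.asFiber x')
    exact ⟨e3.symm.trans e1⟩
  · have h3 : f.fiberι (g (f' x')) (φ (f'.asFiber x')) = g' x' := by
      change (φ ≫ f.fiberι (g (f' x'))) (f'.asFiber x') = _
      rw [hφ, Scheme.Hom.comp_apply, Scheme.Hom.fiberι_asFiber]
    rw [hw] at e2
    obtain ⟨e4⟩ := nonempty_stalk_asFiber_equiv f (g' x') (g (f' x')) _ h3
    exact ⟨e4.trans e2⟩

/-- The residue field of a scheme, as a type with the instance path through `Field`. -/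
theorem isPullback_field {X Y X' Y' : Scheme.{u}} {f : X ⟶ Y} {g : Y' ⟶ Y} {f' : X' ⟶ Y'} {g' : X' ⟶ X}
    (hsq : IsPullback g' f' f g) (y' : Y') :
    ∃ (k k' : Type u) (_ : Field k) (_ : Field k') (_ : Algebra k k')
      (u : CommRingCat.of k ≅ Y.residueField (g y')) (u' : CommRingCat.of k' ≅ Y'.residueField y')
      (_ : u.hom ≫ g.residueFieldMap y' = CommRingCat.ofHom (algebraMap k k') ≫ u'.hom)
      (φ : f'.fiber y' ⟶ f.fiber (g y')),
      φ ≫ f.fiberι (g y') = f'.fiberι y' ≫ g' ∧
      IsPullback φ (f'.fiberToSpecResidueField y' ≫ Spec.map u'.hom)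
        (f.fiberToSpecResidueField (g y') ≫ Spec.map u.hom)
        (Spec.map (CommRingCat.ofHom (algebraMap k k'))) := by
  have hpb := isPullback_fiberToSpecResidueField_of_isPullback hsq y'
  refine ⟨IsLocalRing.ResidueField (Y.presheaf.stalk (g y')), IsLocalRing.ResidueField (Y'.presheaf.stalk y'),
    inferInstance, inferInstance, RingHom.toAlgebra (g.residueFieldMap y').hom, Iso.refl _, Iso.refl _, ?_, 
    pullback.map _ _ _ _ g' (Spec.map (g.residueFieldMap y')) g hsq.w.symm (by simp), pullback.lift_fst _ _ _, ?_⟩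
  · rfl
  · refine hpb.of_iso (Iso.refl _) (Iso.refl _) (Iso.refl _) (Iso.refl _) ?_ ?_ ?_ ?_
    · exact (Category.comp_id _).trans (Category.id_comp _).symm
    · exact (Category.comp_id _).trans ((Category.id_comp _).trans
        ((congrArg (_ ≫ ·) (Spec.map_id _)).trans (Category.comp_id _))).symm
    · exact (Category.comp_id _).trans ((Category.id_comp _).trans
        ((congrArg (_ ≫ ·) (Spec.map_id _)).trans (Category.comp_id _))).symm
    · exact (Category.comp_id _).trans (Category.id_comp _).symm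

/-- `κ(x)` is a finitely generated extension of `κ(f x)` if `f` is locally of finite type. -/
theorem residueFieldMap_essFiniteType {X Y : Scheme.{u}} (f : X ⟶ Y) [LocallyOfFiniteType f] (x : X) :
    (f.residueFieldMap x).hom.EssFiniteType := by
  have h1 : (f.stalkMap x).hom.EssFiniteType := LocallyOfFiniteType.stalkMap f x
  have h2 : (X.residue x).hom.EssFiniteType :=
    (RingHom.FiniteType.of_surjective _ (X.residue_surjective _)).essFiniteType
  have h3 := h1.comp h2
  rw [← CommRingCat.hom_comp, ← Scheme.residue_residueFieldMap, CommRingCat.hom_comp] at h3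
  exact RingHom.EssFiniteType.of_comp _ h3

theorem essFiniteType_of_iso {A B : CommRingCat.{u}} (e : A ≅ B) : e.hom.hom.EssFiniteType :=
  (RingHom.FiniteType.of_surjective _ e.commRingCatIsoToRingEquiv.surjective).essFiniteType

/-- **Local rings of the fibres in a cartesian square.**  `k = κ(g (f' x'))`, `k' = κ(f' x')`, `Spec A` an affine open
of the fibre of `f` over `g (f' x')`, `q` a prime of `A ⊗[k] k'`: the local ring at `x'` of the fibre of `f'` through
`x'` is `(A ⊗[k] k')_q` and the local ring at `g' x'` of the fibre of `f` through `g' x'` is `A` localized at the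
contraction of `q`. -/
theorem exists_tensor {X Y X' Y' : Scheme.{u}} {f : X ⟶ Y} {g : Y' ⟶ Y} {f' : X' ⟶ Y'} {g' : X' ⟶ X}
    (hsq : IsPullback g' f' f g) (x' : X') :
    ∃ (k k' : Type u) (_ : Field k) (_ : Field k') (_ : Algebra k k')
      (A : Type u) (_ : CommRing A) (_ : Algebra k A) (q : Ideal (A ⊗[k] k')) (_ : q.IsPrime),
      Nonempty ((f'.fiber (f' x')).presheaf.stalk (f'.asFiber x') ≃+* Localization.AtPrime q) ∧
      Nonempty ((f.fiber (f (g' x'))).presheaf.stalk (f.asFiber (g' x')) ≃+*
        Localization.AtPrime (q.comap (algebraMap A (A ⊗[k] k')))) ∧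
      (LocallyOfFiniteType f → Algebra.FiniteType k A) ∧
      (IsLocallyNoetherian (f.fiber (g (f' x'))) → IsNoetherianRing A) ∧
      (LocallyOfFiniteType g → Algebra.EssFiniteType k k') := by
  obtain ⟨k, k', _, _, _, u, u', hu, φ, hφ, hpb⟩ := isPullback_field hsq (f' x')
  obtain ⟨A, _, _, j, _, hj, q, _, e1, e2⟩ := exists_tensor_aux x' k k' _ _ φ hφ hpb
  refine ⟨k, k', inferInstance, inferInstance, inferInstance, A, inferInstance, inferInstance, q, inferInstance,
    e1, e2, fun hf => ?_, fun hn => ?_, fun hg => ?_⟩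
  · have h1 : LocallyOfFiniteType (f.fiberToSpecResidueField (g (f' x'))) :=
      MorphismProperty.pullback_snd (P := @LocallyOfFiniteType) _ _ inferInstance
    have h2 : LocallyOfFiniteType (j ≫ f.fiberToSpecResidueField (g (f' x')) ≫ Spec.map u.hom) := inferInstance
    rw [hj, HasRingHomProperty.Spec_iff (P := @LocallyOfFiniteType)] at h2
    exact RingHom.finiteType_algebraMap.mp h2
  · have h1 : IsLocallyNoetherian (Spec (CommRingCat.of A)) := isLocallyNoetherian_of_isOpenImmersion j
    exact isLocallyNoetherian_Spec.mp h1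
  · have h1 := residueFieldMap_essFiniteType g (f' x')
    have h2 : CommRingCat.ofHom (algebraMap k k') = u.hom ≫ g.residueFieldMap (f' x') ≫ u'.inv := by
      rw [← Category.assoc, hu, Category.assoc, Iso.hom_inv_id, Category.comp_id]
    have h3 : (u.hom ≫ g.residueFieldMap (f' x') ≫ u'.inv).hom.EssFiniteType := by
      rw [CommRingCat.hom_comp, CommRingCat.hom_comp]
      exact (essFiniteType_of_iso u).comp (h1.comp (essFiniteType_of_iso u'.symm))
    rw [← h2] at h3
    exact RingHom.essFiniteType_algebraMap.mp h3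

end Groth.Agent.Dual.H330.FiberBC
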